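import Mathlib
import Cfsg.Agent.Lib.Helper44.FW.Defs

/-!
# Project FW (S3211): package [ZCOR]

From the conclusion of the `Z*`-theorem to `G = C(j) O(G)`.
-/

set_option autoImplicit false

namespace Cfsg.Agent.Lib.Helper59.FW

open Cfsg.Agent.Lib.Helper44.FW

universe u

theorem pkgZCor : PkgZCor.{u} := by
  intro G _ _ j hj hN
  obtain ⟨N, hNn, hNodd, hN⟩ := hN
  have hle : N ≤ Cfsg.oddCore G :=
    le_sSup (show N ∈ {N : Subgroup G | N.Normal ∧ (Nat.card N).Coprime 2} from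
      ⟨hNn, Nat.coprime_two_right.2 hNodd⟩)
  have hj2 : j * j = 1 := by
    rw [← pow_two, ← hj]
    exact pow_orderOf_eq_one j
  have hjinv : j⁻¹ = j := inv_eq_of_mul_eq_one_right hj2
  rw [eq_top_iff]
  intro g _
  obtain ⟨a, ha⟩ : ∃ a, a = g * j * g⁻¹ * j⁻¹ := ⟨_, rfl⟩
  have haN : a ∈ N := by
    have h1 := N.inv_mem (hN g)
    have e : (j * g * j⁻¹ * g⁻¹)⁻¹ = a := by
      rw [ha]
      group
    rwa [e] at h1
  have hainv : j * a * j⁻¹ = a⁻¹ := by
    rw [ha, hjinv]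
    have e1 : j * (g * j * g⁻¹ * j) * j = j * g * j * g⁻¹ * (j * j) := by group
    have e2 : (g * j * g⁻¹ * j)⁻¹ = j⁻¹ * g * j⁻¹ * g⁻¹ := by group
    rw [e1, e2, hj2, hjinv, mul_one]
  have hodd : Odd (orderOf a) := Odd.of_dvd_nat hNodd (Subgroup.orderOf_dvd_natCard N haN)
  obtain ⟨k, hk⟩ := hodd
  obtain ⟨m, hm⟩ : ∃ m, m = a ^ (k + 1) := ⟨_, rfl⟩
  have hmN : m ∈ N := by
    rw [hm]
    exact N.pow_mem haN _
  have hm2 : m * m = a := by
    rw [hm, ← pow_add]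
    have e : k + 1 + (k + 1) = orderOf a + 1 := by omega
    rw [e, pow_succ, pow_orderOf_eq_one, one_mul]
  have hminv : j * m * j⁻¹ = m⁻¹ := by
    rw [hm, ← conj_pow, hainv, inv_pow]
  have h1 : m * j * m⁻¹ = g * j * g⁻¹ := by
    have e1 : m * j * m⁻¹ = m * (j * m * j⁻¹)⁻¹ * j := by group
    rw [e1, hminv, inv_inv, hm2, ha]
    group
  have hc : m⁻¹ * g ∈ Subgroup.centralizer ({j} : Set G) := by
    rw [Subgroup.mem_centralizer_iff]
    intro h hh
    rw [Set.mem_singleton_iff] at hh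
    rw [hh]
    have e2 : j * (m⁻¹ * g) = m⁻¹ * (m * j * m⁻¹) * g := by group
    rw [e2, h1]
    group
  have hg : g = m * (m⁻¹ * g) := by group
  rw [hg]
  exact Subgroup.mul_mem _ (le_sup_right (a := Subgroup.centralizer ({j} : Set G)) (hle hmN))
    (le_sup_left (b := Cfsg.oddCore G) hc)

end Cfsg.Agent.Lib.Helper59.FW
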